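import Cfsg.Agent.H440.TwoGen.Lyons

/-!
# `Ly` is generated by an involution and another element (helper68, TEAM GEN, S4180)

`Ly = ⟨a, b, c, d, z⟩`, `⟨a, b, c, d⟩ ≅ G₂(5)`; `z` commutes with the element `h` of order `3`, `z² = a²` and
`G₂(5) = ⟨c₀, h, a²⟩` for a conjugate `c₀` of the involution `a⁴`; so `Ly = ⟨c₀, z h⟩`.
-/

set_option autoImplicit false

namespace Cfsg.Agent.H68.DG.Ly

open Cfsg.Agent.Ly.Mat7 Cfsg.Agent.Ly.Upper Cfsg.Agent.Ly.Index Cfsg.Agent.Ly.Pres Cfsg.Agent.Ly.WalkCtx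
open Cfsg.Agent.H440.TwoGen (left_mem_of_pow right_mem_of_pow)
open Cfsg.Agent.H440.TwoGen.Lyons (wd wd_append wd_flat wd_eq h h' eh eh3 mem_of_mul z_sq z_pow z_h)

/-- the involution -/
def c0 : List ℕ := [0, 1, 2, 3, 2, 0, 0, 0, 0, 6, 7, 6, 5, 4]
/-- `a²` -/
def s2 : List ℕ := [0, 0]
/-- `a⁻²` -/
def s2' : List ℕ := [4, 4]

/-- word for `a` -/
def la : List (List ℕ) :=
  [h', s2', c0, s2', c0, s2, c0, h, c0, s2', c0, h, c0, h, s2', c0, h', c0, h', s2', c0, s2', c0]
/-- word for `b` -/
def lb : List (List ℕ) :=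
  [c0, s2, c0, s2, c0, s2, c0, s2', c0, s2, c0, s2, c0, s2, c0, h', s2']
/-- word for `c` -/
def lc : List (List ℕ) :=
  [c0, s2', c0, s2, c0, s2', c0, s2', c0, s2, c0, s2, c0, s2', c0, s2, c0, s2, s2]
/-- word for `d` -/
def ld : List (List ℕ) :=
  [c0, s2, c0, h', s2, c0, h, c0, s2, s2, c0, h', s2', c0, h', s2', c0, h', s2', c0, h, c0, h', s2, s2, c0]

theorem ec0 : eqW (c0 ++ c0) [] = true := by decide +kernel
theorem es2 : eqW (s2 ++ s2') [] = true := by decide +kernel
theorem ea : eqW [0] la.flatten = true := by decide +kernel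
theorem eb : eqW [1] lb.flatten = true := by decide +kernel
theorem ec : eqW [2] lc.flatten = true := by decide +kernel
theorem ed : eqW [3] ld.flatten = true := by decide +kernel

theorem c0_sq : wd c0 ^ 2 = 1 := by
  have h1 : wd (c0 ++ c0) = 1 := wd_eq ec0
  rw [wd_append] at h1
  rw [pow_two]; exact h1

/-- `Ly = ⟨c₀, z h⟩`. -/
theorem closure_eq' : Subgroup.closure ({wd c0, gens 4 * wd h} : Set Cfsg.Spor.Ly) = ⊤ := by
  set S := Subgroup.closure ({wd c0, gens 4 * wd h} : Set Cfsg.Spor.Ly) with hS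
  have h0 : wd c0 ∈ S := Subgroup.subset_closure (by simp)
  have h1 : gens 4 * wd h ∈ S := Subgroup.subset_closure (by simp)
  have h3 : wd h ^ 3 = 1 := by
    have h2 : wd (h ++ h ++ h) = 1 := wd_eq eh3
    rw [wd_append, wd_append] at h2
    rw [pow_succ, pow_two]; exact h2
  have hz : gens 4 ∈ S := left_mem_of_pow S z_h z_pow h3 (by decide) h1
  have hh : wd h ∈ S := right_mem_of_pow S z_h z_pow h3 (by decide) h1
  have hh' : wd h' ∈ S := mem_of_mul (by rw [← wd_append]; exact wd_eq eh) hh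
  have hs : wd s2 ∈ S := by
    have e : wd s2 = gens 0 * (gens 0 * 1) := rfl
    rw [e, mul_one, ← z_sq]
    exact S.mul_mem hz hz
  have hs' : wd s2' ∈ S := mem_of_mul (by rw [← wd_append]; exact wd_eq es2) hs
  have hall : ∀ l ∈ [c0, h, h', s2, s2'], wd l ∈ S := by
    intro l hl
    simp only [List.mem_cons, List.not_mem_nil, or_false] at hl
    rcases hl with rfl | rfl | rfl | rfl | rfl
    · exact h0
    · exact hh
    · exact hh'
    · exact hs
    · exact hs'
  have ha : wd [0] ∈ S := by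
    rw [wd_eq ea]; exact wd_flat la fun l hl => hall l (by revert l; decide)
  have hb : wd [1] ∈ S := by
    rw [wd_eq eb]; exact wd_flat lb fun l hl => hall l (by revert l; decide)
  have hc : wd [2] ∈ S := by
    rw [wd_eq ec]; exact wd_flat lc fun l hl => hall l (by revert l; decide)
  have hd : wd [3] ∈ S := by
    rw [wd_eq ed]; exact wd_flat ld fun l hl => hall l (by revert l; decide)
  have e0 : wd [0] = gens 0 := mul_one _
  have e1 : wd [1] = gens 1 := mul_one _
  have e2 : wd [2] = gens 2 := mul_one _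
  have e3 : wd [3] = gens 3 := mul_one _
  rw [e0] at ha
  rw [e1] at hb
  rw [e2] at hc
  rw [e3] at hd
  rw [eq_top_iff, ← closure_gens, Subgroup.closure_le]
  rintro _ ⟨i, rfl⟩
  fin_cases i
  · exact ha
  · exact hb
  · exact hc
  · exact hd
  · exact hz

/-! ### `Ly` is not commutative -/

/-- exponent of the generator `i` in a word -/
def ex (i : Fin 5) (w : List (Fin 5 × Bool)) : ℤ :=
  (w.map fun l => if l.1 = i then (if l.2 then 1 else -1) else 0).sum

theorem lift_comm {A : Type*} [CommGroup A] (x : Fin 5 → A) (w : List (Fin 5 × Bool)) :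
    FreeGroup.lift x (FreeGroup.mk w) = ∏ i, x i ^ ex i w := by
  rw [FreeGroup.lift_mk]
  induction w with
  | nil => simp [ex]
  | cons l w ih =>
    rw [List.map_cons, List.prod_cons, ih]
    have h1 : ∀ i, ex i (l :: w) = (if l.1 = i then (if l.2 then 1 else -1) else 0) + ex i w := fun i => by
      simp [ex]
    simp only [h1, zpow_add, Finset.prod_mul_distrib]
    congr 1
    rw [Finset.prod_eq_single l.1]
    · cases l.2 <;> simp
    · intro b _ hb
      rw [if_neg (fun h => hb h.symm), zpow_zero]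
    · intro hb
      exact absurd (Finset.mem_univ _) hb

theorem not_comm [Nontrivial Cfsg.Spor.Ly] : ¬ IsMulCommutative Cfsg.Spor.Ly := by
  intro hcm
  let _ : CommGroup Cfsg.Spor.Ly := { (inferInstance : Group Cfsg.Spor.Ly) with mul_comm := hcm.is_comm.comm }
  have key : ∀ w ∈ relWords, gens 0 ^ ex 0 w * (gens 1 ^ ex 1 w * (gens 2 ^ ex 2 w * (gens 3 ^ ex 3 w * gens 4 ^ ex 4 w))) =
      (1 : Cfsg.Spor.Ly) := by
    intro w hw
    have h1 := rel_hold w hw
    have h2 := lift_comm gens w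
    rw [h1] at h2
    rw [h2]
    simp [Fin.prod_univ_succ]
  have r23 := key rel23 (by simp [relWords])
  have r36 := key rel36 (by simp [relWords])
  have r84 := key rel84 (by simp [relWords])
  have r43 := key rel43 (by simp [relWords])
  have r40 := key rel40 (by simp [relWords])
  have r81 := key rel81 (by simp [relWords])
  have r82 := key rel82 (by simp [relWords])
  rw [show ex 0 rel23 = 0 by decide, show ex 1 rel23 = 0 by decide, show ex 2 rel23 = 1 by decide,
    show ex 3 rel23 = 0 by decide, show ex 4 rel23 = 0 by decide] at r23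
  rw [show ex 0 rel36 = 0 by decide, show ex 1 rel36 = 1 by decide, show ex 2 rel36 = 2 by decide,
    show ex 3 rel36 = 0 by decide, show ex 4 rel36 = 0 by decide] at r36
  rw [show ex 0 rel84 = -1 by decide, show ex 1 rel84 = 0 by decide, show ex 2 rel84 = 1 by decide,
    show ex 3 rel84 = 0 by decide, show ex 4 rel84 = 0 by decide] at r84
  rw [show ex 0 rel43 = 0 by decide, show ex 1 rel43 = 0 by decide, show ex 2 rel43 = 0 by decide,
    show ex 3 rel43 = 5 by decide, show ex 4 rel43 = 0 by decide] at r43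
  rw [show ex 0 rel40 = -4 by decide, show ex 1 rel40 = 0 by decide, show ex 2 rel40 = 0 by decide,
    show ex 3 rel40 = 2 by decide, show ex 4 rel40 = 0 by decide] at r40
  rw [show ex 0 rel81 = -2 by decide, show ex 1 rel81 = 0 by decide, show ex 2 rel81 = 0 by decide,
    show ex 3 rel81 = 0 by decide, show ex 4 rel81 = 2 by decide] at r81
  rw [show ex 0 rel82 = 5 by decide, show ex 1 rel82 = 0 by decide, show ex 2 rel82 = 0 by decide,
    show ex 3 rel82 = 0 by decide, show ex 4 rel82 = 3 by decide] at r82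
  have hc : gens 2 = (1 : Cfsg.Spor.Ly) := by simpa using r23
  rw [hc] at r36 r84
  have hb : gens 1 = (1 : Cfsg.Spor.Ly) := by simpa using r36
  have ha : gens 0 = (1 : Cfsg.Spor.Ly) := by simpa using r84
  rw [ha] at r40 r81 r82
  simp only [one_zpow, zpow_zero, one_mul, mul_one] at r43 r40 r81 r82
  have fin : ∀ g : Cfsg.Spor.Ly, ∀ m n u v : ℤ, g ^ m = 1 → g ^ n = 1 → m * u + n * v = 1 → g = 1 := by
    intro g m n u v h1 h2 h3
    have h4 : g ^ (m * u + n * v) = 1 := by rw [zpow_add, zpow_mul, zpow_mul, h1, h2, one_zpow, one_zpow, one_mul]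
    rwa [h3, zpow_one] at h4
  have hd : gens 3 = (1 : Cfsg.Spor.Ly) := fin _ 5 2 1 (-2) r43 r40 (by norm_num)
  have hz : gens 4 = (1 : Cfsg.Spor.Ly) := fin _ 2 3 (-1) 1 r81 r82 (by norm_num)
  have htop : (⊤ : Subgroup Cfsg.Spor.Ly) = ⊥ := by
    rw [← closure_gens, eq_bot_iff, Subgroup.closure_le]
    rintro _ ⟨i, rfl⟩
    fin_cases i
    · exact ha
    · exact hb
    · exact hc
    · exact hd
    · exact hz
  exact top_ne_bot htop

end Cfsg.Agent.H68.DG.Ly
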