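import Cfsg.Agent.H68.DG.J4
import Cfsg.Agent.H68.DG.Ly
import Cfsg.Agent.H891.DG.Tools

/-!
# `Coh` for `J4` and `Ly` (helper68, TEAM GEN, S4180)
-/

set_option autoImplicit false

namespace Cfsg.Agent.H68.DG.CohJ4Ly

open Cfsg Cfsg.Agent.H891.DG Subgroup

universe u

/-- transport of a generating pair, the first of order two -/
theorem coh_of_iso {T : Type u} [Group T] [Finite T] [IsSimpleGroup T] {S : Type*} [Group S] (e : T ≃* S)
    (hna : ¬ IsMulCommutative S) {c b : S} (hc : c ^ 2 = 1) (h : closure ({c, b} : Set S) = ⊤) : Coh T := by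
  have hna' : ¬ IsMulCommutative T := by
    intro h1
    apply hna
    refine ⟨⟨fun a b => ?_⟩⟩
    have h2 : e.symm a * e.symm b = e.symm b * e.symm a := h1.is_comm.comm _ _
    rw [← map_mul, ← map_mul] at h2
    exact e.symm.injective h2
  have hcl : closure ({e.symm c, e.symm b} : Set T) = ⊤ := by
    have h1 : closure ({e.symm c, e.symm b} : Set T) = (closure ({c, b} : Set S)).map e.symm.toMonoidHom := by
      rw [MonoidHom.map_closure, Set.image_pair]
      rfl
    rw [h1, h]
    exact map_top_of_surjective _ e.symm.surjective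
  refine Tools.coh_of_involution hna' (c := e.symm c) (b := e.symm b) ?_ ?_ hcl
  · rw [← map_pow, hc, map_one]
  · intro h1
    apply hna'
    have h2 : closure ({e.symm b} : Set T) = ⊤ := by
      rw [eq_top_iff, ← hcl, closure_le]
      rintro s (rfl | rfl)
      · rw [h1]; exact one_mem _
      · exact subset_closure rfl
    have h3 : IsCyclic T := ⟨e.symm b, fun x => mem_zpowers_iff.1 (by
      rw [zpowers_eq_closure, h2]; exact mem_top _)⟩
    exact IsCyclic.isMulCommutative

/-- **`Coh` for `J4`.** -/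
theorem coh_j4 {T : Type u} [Group T] [Finite T] [IsSimpleGroup T] (h : Cfsg.Spor.IsoJ4 T) : Coh T := by
  obtain ⟨e⟩ := h
  have : Nontrivial Cfsg.Spor.J4 := e.symm.toEquiv.nontrivial
  exact coh_of_iso e J4.not_comm J4.c_sq J4.closure_eq'

/-- **`Coh` for `Ly`.** -/
theorem coh_ly {T : Type u} [Group T] [Finite T] [IsSimpleGroup T] (h : Cfsg.Spor.IsoLy T) : Coh T := by
  obtain ⟨e⟩ := h
  have : Nontrivial Cfsg.Spor.Ly := e.symm.toEquiv.nontrivial
  exact coh_of_iso e Ly.not_comm Ly.c0_sq Ly.closure_eq'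

end Cfsg.Agent.H68.DG.CohJ4Ly
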