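import Cfsg.Agent.H440.TwoGen.JFour

/-!
# `J4` is generated by an involution and another element (helper68, TEAM GEN, S4180)

`J4 = ⟨x, y, t⟩`, `⟨x, y⟩ ≅ M24`; `t` commutes with the element `w` of order `21` of `M24` and `M24 = ⟨y x y⁻¹, w⟩`; so
`J4 = ⟨y x y⁻¹, t w⟩`.
-/

set_option autoImplicit false

open Cfsg

namespace Cfsg.Agent.H68.DG.J4

open Cfsg.Agent.J4.M24Hom Cfsg.Agent.J4.Pres Cfsg.Agent.J4.Rep112
open Cfsg.Agent.H440.TwoGen (left_mem_of_pow right_mem_of_pow)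
open Cfsg.Agent.H440.TwoGen.JFour (w w_pow t_w t_pow)

/-- letters `c, w, w⁻¹` -/
def lt {G : Type*} [Group G] (c w : G) (i : ℕ) : G := if i = 0 then c else if i = 1 then w else w⁻¹

/-- value of a word in `c, w, w⁻¹` -/
def ev {G : Type*} [Group G] (c w : G) (l : List ℕ) : G := (l.map (lt c w)).prod

theorem map_lt {G H : Type*} [Group G] [Group H] (f : G →* H) (c w : G) (i : ℕ) :
    f (lt c w i) = lt (f c) (f w) i := by
  unfold lt
  split_ifs <;> simp

theorem map_ev {G H : Type*} [Group G] [Group H] (f : G →* H) (c w : G) (l : List ℕ) :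
    f (ev c w l) = ev (f c) (f w) l := by
  unfold ev
  rw [map_list_prod, List.map_map]
  congr 1
  exact List.map_congr_left fun i _ => map_lt f c w i

theorem ev_mem {G : Type*} [Group G] (S : Subgroup G) {c w : G} (hc : c ∈ S) (hw : w ∈ S) (l : List ℕ) :
    ev c w l ∈ S := by
  unfold ev
  apply Subgroup.list_prod_mem
  intro g hg
  obtain ⟨i, -, rfl⟩ := List.mem_map.1 hg
  unfold lt
  split_ifs
  · exact hc
  · exact hw
  · exact S.inv_mem hw

/-- the element `w` of `M24` -/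
def W0 : Equiv.Perm GolayPt := X * (Y * X * Y * (X * Y⁻¹) ^ 2 * (X * Y) ^ 3)

/-- word for `x` -/
def lx : List ℕ := [0,1,0,1,1,0,2,0,1,1,1,1,1,0,1,1,0,2,2,0,1,0,1,1,0,2,2,0,1,1]

/-- word for `y` -/
def ly : List ℕ := [0,1,1,1,1,0,2,0,2,2,2,2,2,2,2,0,2,0,1,0,1,0,2,2,2,0]

theorem X_eq : X = ev (Y * X * Y⁻¹) W0 lx := by
  apply perm_ext; decide +kernel

theorem Y_eq : Y = ev (Y * X * Y⁻¹) W0 ly := by
  apply perm_ext; decide +kernel

/-- the element `w` of `M24` -/
def WM : M24 := XM * (YM * XM * YM * (XM * YM⁻¹) ^ 2 * (XM * YM) ^ 3)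

theorem phi_W : phi WM = w := by
  unfold WM w
  simp only [map_mul, map_pow, map_inv, phi_X, phi_Y]

theorem x_eq : x = ev (y * x * y⁻¹) w lx := by
  have h1 : XM = ev (YM * XM * YM⁻¹) WM lx := by
    apply Subtype.ext
    have h2 := map_ev M24.subtype (YM * XM * YM⁻¹) WM lx
    rw [← Subgroup.coe_subtype, h2]
    exact X_eq
  have h2 := congrArg phi h1
  rw [map_ev] at h2
  simpa only [map_mul, map_inv, phi_X, phi_Y, phi_W] using h2

theorem y_eq : y = ev (y * x * y⁻¹) w ly := by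
  have h1 : YM = ev (YM * XM * YM⁻¹) WM ly := by
    apply Subtype.ext
    have h2 := map_ev M24.subtype (YM * XM * YM⁻¹) WM ly
    rw [← Subgroup.coe_subtype, h2]
    exact Y_eq
  have h2 := congrArg phi h1
  rw [map_ev] at h2
  simpa only [map_mul, map_inv, phi_X, phi_Y, phi_W] using h2

theorem c_sq : (y * x * y⁻¹) ^ 2 = (1 : Cfsg.Spor.J4) := by
  have h1 : x * x = (1 : Cfsg.Spor.J4) := by rw [← pow_two]; exact all_rels.1
  calc (y * x * y⁻¹) ^ 2 = y * (x * x) * y⁻¹ := by rw [pow_two]; simp only [mul_assoc, inv_mul_cancel_left]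
    _ = 1 := by rw [h1, mul_one, mul_inv_cancel]

/-- `J4 = ⟨y x y⁻¹, t w⟩`. -/
theorem closure_eq' : Subgroup.closure ({y * x * y⁻¹, t * w} : Set Cfsg.Spor.J4) = ⊤ := by
  set S := Subgroup.closure ({y * x * y⁻¹, t * w} : Set Cfsg.Spor.J4) with hS
  have h0 : y * x * y⁻¹ ∈ S := Subgroup.subset_closure (by simp)
  have h1 : t * w ∈ S := Subgroup.subset_closure (by simp)
  have ht : t ∈ S := left_mem_of_pow S t_w t_pow w_pow (by decide) h1
  have hw : w ∈ S := right_mem_of_pow S t_w t_pow w_pow (by decide) h1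
  have hx : x ∈ S := by rw [x_eq]; exact ev_mem S h0 hw _
  have hy : y ∈ S := by rw [y_eq]; exact ev_mem S h0 hw _
  rw [eq_top_iff, ← closure_eq_top, Subgroup.closure_le]
  rintro s (rfl | rfl | rfl)
  · exact hx
  · exact hy
  · exact ht

/-- A commutative quotient of `J4` is trivial. -/
theorem not_comm [Nontrivial Cfsg.Spor.J4] : ¬ IsMulCommutative Cfsg.Spor.J4 := by
  intro hc
  have hm : ∀ a b : Cfsg.Spor.J4, a * b = b * a := fun a b => hc.is_comm.comm a b
  have hxy : x = (1 : Cfsg.Spor.J4) ∧ y = (1 : Cfsg.Spor.J4) := by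
    have h1 : x ^ 2 = (1 : Cfsg.Spor.J4) := all_rels.1
    have h2 : y ^ 3 = (1 : Cfsg.Spor.J4) := all_rels.2.1
    have h3 : (x * y) ^ 23 = (1 : Cfsg.Spor.J4) := all_rels.2.2.1
    have h4 : x * y = (1 : Cfsg.Spor.J4) := by
      have h5 : (x * y) ^ 6 = (1 : Cfsg.Spor.J4) := by
        rw [(show Commute x y from hm x y).mul_pow]
        rw [show x ^ 6 = (x ^ 2) ^ 3 by rw [← pow_mul], show y ^ 6 = (y ^ 3) ^ 2 by rw [← pow_mul], h1, h2]
        simp
      have h6 : (x * y) ^ 24 = (1 : Cfsg.Spor.J4) := by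
        rw [show (24 : ℕ) = 6 * 4 from rfl, pow_mul, h5, one_pow]
      rw [pow_succ, h3, one_mul] at h6
      exact h6
    have h5 : x = y⁻¹ := eq_inv_of_mul_eq_one_left h4
    have h6 : y ^ 2 = (1 : Cfsg.Spor.J4) := by
      rw [h5, inv_pow, inv_eq_one] at h1
      exact h1
    have h7 : y = (1 : Cfsg.Spor.J4) := by
      rw [pow_succ, h6, one_mul] at h2
      exact h2
    exact ⟨by rw [h5, h7, inv_one], h7⟩
  have ht : t = (1 : Cfsg.Spor.J4) := by
    have h1 := all_rels.2.2.2.2.2.2.2.2.2.2.1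
    have h2 : t ^ 2 = (1 : Cfsg.Spor.J4) := t_pow
    rw [hxy.1, hxy.2] at h1
    simp only [inv_one, mul_one, one_mul] at h1
    rw [pow_succ, h2, one_mul] at h1
    exact h1
  have htop : (⊤ : Subgroup Cfsg.Spor.J4) = ⊥ := by
    rw [← closure_eq_top, eq_bot_iff, Subgroup.closure_le]
    rintro s (rfl | rfl | rfl)
    · exact hxy.1
    · exact hxy.2
    · exact ht
  exact top_ne_bot htop

end Cfsg.Agent.H68.DG.J4
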